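import Mathlib
import Cfsg.Agent.Lib.Tech.SylowIn

/-! Vocabulary for pairs of conjugate TI-subgroups.  See `plans/OTI2.md`. -/

set_option autoImplicit false

namespace CfsgLib.OTI2

open Subgroup CfsgLib.Tech

universe u

variable {G : Type u} [Group G]

/-- two distinct conjugate TI-subgroups -/
structure TP (T T' : Subgroup G) : Prop where
  ne : T ≠ T'
  conj : ∃ g : G, cj g T = T'
  ti : ∀ g : G, ∀ a ∈ T, a ≠ 1 → g * a * g⁻¹ ∈ T → g ∈ normalizer (T : Set G)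

/-- `T ∩ N(T')` -/
abbrev KK (T T' : Subgroup G) : Subgroup G := T ⊓ normalizer (T' : Set G)

/-- `K`, `L` are nontrivial Sylow 2-subgroups of `T ∩ N(T')` and `T' ∩ N(T)` -/
structure Sy (T T' K L : Subgroup G) : Prop extends TP T T' where
  sK : IsSylowIn 2 K (KK T T')
  sL : IsSylowIn 2 L (KK T' T)
  neK : K ≠ ⊥

/-- case II: `K` is not a Sylow subgroup of `T`; `S ≥ K L` is a Sylow subgroup of `T L` -/
structure C2 (T T' K L S : Subgroup G) : Prop extends Sy T T' K L where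
  sS : IsSylowIn 2 S (T ⊔ L)
  leK : K ≤ S
  leL : L ≤ S
  nle : ¬ S ⊓ T ≤ K

/-- `A = N_{S ∩ T}(K L)` -/
abbrev AA (T K L S : Subgroup G) : Subgroup G :=
  S ⊓ T ⊓ normalizer ((K ⊔ L : Subgroup G) : Set G)

/-- the structure of `S` when `K L` is not normal in `S` and `|K| ≥ 4` -/
structure Big (T K L S : Subgroup G) : Prop where
  elem : ∀ k ∈ K, k * k = 1
  full : ∀ l ∈ L, l ≠ 1 → ∀ k ∈ K, ∃ u ∈ AA T K L S, u * l * u⁻¹ * l⁻¹ = k
  noinv : ∀ u ∈ AA T K L S, u * u = 1 → u ∈ K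
  two : ∀ a ∈ S ⊓ T, ∀ b ∈ S ⊓ T, a ∉ AA T K L S → b ∉ AA T K L S → a * b ∈ AA T K L S
  nrmK : S ≤ normalizer (K : Set G)
  cmem : ∀ s ∈ S ⊓ T, ∀ l ∈ L, s * l * s⁻¹ * l⁻¹ ∈ AA T K L S
  surj : ∀ s ∈ S ⊓ T, s ∉ AA T K L S → ∀ u ∈ AA T K L S, ∃ l ∈ L, s * l * s⁻¹ * l⁻¹ * u⁻¹ ∈ K

/-- nonabelian simple -/
structure NS (T : Subgroup G) : Prop where
  simple : IsSimpleGroup T
  ncomm : ¬ IsMulCommutative T

/-- `C` is a nonabelian simple normal subgroup of `T` -/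
structure Fac (T C : Subgroup G) : Prop extends NS C where
  le : C ≤ T
  nrm : T ≤ normalizer (C : Set G)

/-- `T` is generated by its nonabelian simple normal subgroups -/
def Semi (T : Subgroup G) : Prop := ∀ H : Subgroup G, (∀ C, Fac T C → C ≤ H) → T ≤ H

/-- no nontrivial normal subgroup of odd order -/
def NoO (M : Subgroup G) : Prop :=
  ∀ R : Subgroup G, R ≤ M → M ≤ normalizer (R : Set G) → Odd (Nat.card R) → R = ⊥

/-- `N(T) / T C(T)` is abelian -/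
def OutC (T : Subgroup G) : Prop :=
  ∀ a ∈ normalizer (T : Set G), ∀ b ∈ normalizer (T : Set G), ∃ s ∈ T, ∀ x ∈ T,
    a * b * a⁻¹ * b⁻¹ * x * (a * b * a⁻¹ * b⁻¹)⁻¹ = s * x * s⁻¹

theorem mem_KK {T T' : Subgroup G} {a : G} :
    a ∈ KK T T' ↔ a ∈ T ∧ a ∈ normalizer (T' : Set G) := Iff.rfl

theorem mem_AA {T K L S : Subgroup G} {a : G} :
    a ∈ AA T K L S ↔ (a ∈ S ∧ a ∈ T) ∧ a ∈ normalizer ((K ⊔ L : Subgroup G) : Set G) := Iff.rfl

end CfsgLib.OTI2
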